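import Mathlib

/-!
# Groups with the same prime graph

Basic facts on adjacency in the prime graph, and the fibre powers over an abelian normal subgroup:
they have the same prime graph and unbounded order.
-/

set_option autoImplicit false

namespace CfsgLib.PrimeGraphBound

/-- `p` and `q` are joined in the prime graph. -/
def Adj (G : Type*) [Group G] (p q : ℕ) : Prop := ∃ g : G, orderOf g = p * q

/-- The groups have the same prime divisors and the same joined pairs. -/
def SameGraph (G H : Type*) [Group G] [Group H] : Prop :=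
  (∀ p : ℕ, p.Prime → (p ∣ Nat.card G ↔ p ∣ Nat.card H)) ∧
  ∀ p q : ℕ, p.Prime → q.Prime → p ≠ q →
    ((∃ g : G, orderOf g = p * q) ↔ ∃ g : H, orderOf g = p * q)

variable {G H K : Type*} [Group G] [Group H] [Group K]

theorem SameGraph.refl (G : Type*) [Group G] : SameGraph G G :=
  ⟨fun _ _ => Iff.rfl, fun _ _ _ _ _ => Iff.rfl⟩

theorem SameGraph.trans (h₁ : SameGraph G H) (h₂ : SameGraph H K) : SameGraph G K :=
  ⟨fun p hp => (h₁.1 p hp).trans (h₂.1 p hp),
    fun p q hp hq hne => (h₁.2 p q hp hq hne).trans (h₂.2 p q hp hq hne)⟩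

theorem SameGraph.of_mulEquiv (e : G ≃* H) : SameGraph G H :=
  ⟨fun p _ => by rw [Nat.card_congr e.toEquiv], fun p q _ _ _ =>
    ⟨fun ⟨g, hg⟩ => ⟨e g, by rw [e.orderOf_eq, hg]⟩,
      fun ⟨g, hg⟩ => ⟨e.symm g, by rw [e.symm.orderOf_eq, hg]⟩⟩⟩

theorem Adj.symm {p q : ℕ} (h : Adj G p q) : Adj G q p := by
  obtain ⟨g, hg⟩ := h
  exact ⟨g, by rw [hg, mul_comm]⟩

theorem adj_of_dvd [Finite G] {g : G} {p q : ℕ} (h : p * q ∣ orderOf g) : Adj G p q :=
  ⟨g ^ (orderOf g / (p * q)), orderOf_pow_orderOf_div (orderOf_pos g).ne' h⟩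

theorem adj_of_surjective [Finite G] {f : G →* H} (hf : Function.Surjective f) {p q : ℕ}
    (h : Adj H p q) : Adj G p q := by
  obtain ⟨x, hx⟩ := h
  obtain ⟨g, rfl⟩ := hf x
  exact adj_of_dvd (hx ▸ orderOf_map_dvd f g)

theorem adj_of_commute {u w : G} {p q : ℕ} (hp : p.Prime) (hq : q.Prime) (hne : p ≠ q)
    (hu : orderOf u = p) (hw : orderOf w = q) (hc : Commute u w) : Adj G p q :=
  ⟨u * w, by
    rw [hc.orderOf_mul_eq_mul_orderOf_of_coprime (by
      rw [hu, hw]; exact (Nat.coprime_primes hp hq).2 hne), hu, hw]⟩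

theorem exists_commute_of_adj {p q : ℕ} (hp : p.Prime) (hq : q.Prime) (h : Adj G p q) :
    ∃ u w : G, orderOf u = p ∧ orderOf w = q ∧ Commute u w := by
  obtain ⟨g, hg⟩ := h
  refine ⟨g ^ q, g ^ p, ?_, ?_, (Commute.refl g).pow_pow q p⟩
  · rw [orderOf_pow' g hq.ne_zero, hg, Nat.gcd_eq_right (dvd_mul_left q p),
      Nat.mul_div_cancel _ hq.pos]
  · rw [orderOf_pow' g hp.ne_zero, hg, Nat.gcd_eq_right (dvd_mul_right p q),
      Nat.mul_div_cancel_left _ hp.pos]

theorem orderOf_map_eq {f : G →* H} {u : G} {p : ℕ} (hp : p.Prime) (hu : orderOf u = p)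
    (h : f u ≠ 1) : orderOf (f u) = p :=
  ((Nat.dvd_prime hp).1 (hu ▸ orderOf_map_dvd f u)).resolve_left (by rwa [orderOf_eq_one_iff])

/-- Fibre powers over an elementary abelian normal subgroup. -/
theorem exists_large_of_normal {H : Type} [Group H] [Finite H] (A : Subgroup H) [A.Normal]
    (hA0 : A ≠ ⊥) {r : ℕ} (hr : r.Prime) (hAr : ∀ a ∈ A, a ^ r = 1) (n : ℕ) :
    ∃ (H' : Type) (_ : Group H') (_ : Finite H'), SameGraph H H' ∧ n < Nat.card H' := by
  classical
  let m := n
  let π := QuotientGroup.mk' A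
  let P : Subgroup (Fin (m + 1) → H) :=
    { carrier := {f | ∀ i, π (f i) = π (f 0)}
      one_mem' := fun i => rfl
      mul_mem' := fun {f g} hf hg i => by simp [hf i, hg i]
      inv_mem' := fun {f} hf i => by simp [hf i] }
  let pr : P →* H := (Pi.evalMonoidHom (fun _ => H) 0).comp P.subtype
  have hpr : Function.Surjective pr := fun h => ⟨⟨fun _ => h, fun _ => rfl⟩, rfl⟩
  refine ⟨P, inferInstance, inferInstance, ⟨fun p hp => ⟨fun h => ?_, fun h => ?_⟩,
    fun p q hp hq hne => ⟨adj_of_surjective hpr, ?_⟩⟩, ?_⟩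
  · exact h.trans (Subgroup.card_dvd_of_surjective pr hpr)
  · have h1 := h.trans (Subgroup.card_subgroup_dvd_card P)
    rw [Nat.card_fun, Nat.card_fin] at h1
    exact hp.dvd_of_dvd_pow h1
  · rintro ⟨f, hf⟩
    rw [← Subgroup.orderOf_coe] at hf
    obtain ⟨f, hfP⟩ := f
    set o := orderOf (π (f 0))
    have hmem : ∀ i, f i ^ o ∈ A := fun i => by
      rw [← QuotientGroup.eq_one_iff]
      show π (f i ^ o) = 1
      rw [map_pow, hfP i, pow_orderOf_eq_one]
    have hdo : ∀ i, o ∣ orderOf (f i) := fun i => by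
      have := orderOf_map_dvd π (f i)
      rwa [hfP i] at this
    change orderOf f = p * q at hf
    by_cases hall : ∀ i, f i ^ o = 1
    · refine adj_of_dvd (g := f 0) (dvd_trans ?_ (hdo 0))
      rw [← hf]
      exact orderOf_dvd_of_pow_eq_one (funext hall)
    · push Not at hall
      obtain ⟨i, hi⟩ := hall
      refine adj_of_dvd (g := f i) ?_
      have h1 : orderOf (f i) ∣ o * r :=
        orderOf_dvd_of_pow_eq_one (by rw [pow_mul, hAr _ (hmem i)])
      obtain ⟨c, hc⟩ := hdo i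
      have ho : 0 < o := orderOf_pos _
      have hcr : c ∣ r := by
        rw [hc] at h1
        exact (Nat.mul_dvd_mul_iff_left ho).1 h1
      rcases (Nat.dvd_prime hr).1 hcr with rfl | rfl
      · rw [mul_one] at hc
        exact absurd (hc ▸ pow_orderOf_eq_one (f i)) hi
      · rw [← hf, hc]
        exact orderOf_dvd_of_pow_eq_one (funext fun j => by
          rw [Pi.pow_apply, pow_mul, hAr _ (hmem j), Pi.one_apply])
  · let j : (Fin m → A) → P := fun a => ⟨Fin.cons 1 fun i => (a i : H), fun i => by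
      refine Fin.cases rfl (fun k => ?_) i
      show π (a k : H) = π 1
      rw [map_one]
      exact (QuotientGroup.eq_one_iff _).2 (a k).2⟩
    have hj : Function.Injective j := fun a b hab => funext fun i => Subtype.ext
      (by simpa [j] using congrFun (congrArg Subtype.val hab) i.succ)
    have h1 := Nat.card_le_card_of_injective j hj
    rw [Nat.card_fun, Nat.card_fin] at h1
    haveI : Nontrivial A := A.nontrivial_iff_ne_bot.2 hA0
    exact lt_of_lt_of_le (Nat.lt_pow_self Finite.one_lt_card) h1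

/-- A non-trivial solvable normal subgroup gives unbounded orders. -/
theorem exists_large_of_abelian {H : Type} [Group H] [Finite H] (A : Subgroup H) (hA : A.Normal)
    (hA0 : A ≠ ⊥) (hAc : ∀ a ∈ A, ∀ b ∈ A, a * b = b * a) (n : ℕ) :
    ∃ (H' : Type) (_ : Group H') (_ : Finite H'), SameGraph H H' ∧ n < Nat.card H' := by
  obtain ⟨r, hr, hdvd⟩ := Nat.exists_prime_and_dvd
    (fun h : Nat.card A = 1 => hA0 (Subgroup.card_eq_one.1 h))
  haveI := Fact.mk hr
  let B : Subgroup H :=
    { carrier := {a | a ∈ A ∧ a ^ r = 1}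
      one_mem' := ⟨one_mem A, one_pow r⟩
      mul_mem' := fun {a b} ha hb => ⟨mul_mem ha.1 hb.1, by
        rw [(show Commute a b from hAc a ha.1 b hb.1).mul_pow, ha.2, hb.2, one_mul]⟩
      inv_mem' := fun {a} ha => ⟨inv_mem ha.1, by rw [inv_pow, ha.2, inv_one]⟩ }
  haveI : B.Normal := ⟨fun a ha g => ⟨hA.conj_mem a ha.1 g, by
    rw [conj_pow, ha.2, mul_one, mul_inv_cancel]⟩⟩
  obtain ⟨⟨a, haA⟩, hao⟩ := exists_prime_orderOf_dvd_card' (G := A) r hdvd
  refine exists_large_of_normal B (fun h => ?_) hr (fun a ha => ha.2) n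
  have hao' : orderOf a = r := (Subgroup.orderOf_mk a haA).symm.trans hao
  have : a ∈ B := ⟨haA, hao' ▸ pow_orderOf_eq_one a⟩
  rw [h, Subgroup.mem_bot] at this
  rw [this, orderOf_one] at hao'
  exact hr.one_lt.ne hao'

end CfsgLib.PrimeGraphBound
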