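import Cfsg.Agent.Lib.PrimeGraphBound.Construction
import Cfsg.Agent.Lib.ExtremelyPrimitive.AlmostSimple

/-!
# Bounded prime graph classes consist of almost simple groups

If only boundedly many orders occur among the groups with the prime graph of `H`, then `H` has no
non-trivial abelian normal subgroup and is almost simple.
-/

set_option autoImplicit false
set_option linter.unusedSectionVars false
set_option linter.style.haveILetI false

namespace CfsgLib.PrimeGraphBound

open CfsgLib.ExtremelyPrimitive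

variable {H : Type} [Group H] [Finite H]

theorem not_solvable_of_normal (hab : ∀ A : Subgroup H, A.Normal →
    (∀ a ∈ A, ∀ b ∈ A, a * b = b * a) → A = ⊥) {A : Subgroup H} (hA : A.Normal) (hA0 : A ≠ ⊥) :
    ¬ Group.IsSolvable A := by
  intro hs
  induction hn : Nat.card A using Nat.strong_induction_on generalizing A with
  | _ n ih =>
  haveI := hA
  haveI := hs
  haveI : Nontrivial A := A.nontrivial_iff_ne_bot.2 hA0
  have hlt : ⁅A, A⁆ < A := by
    refine lt_of_le_of_ne (Subgroup.commutator_le_right A A) fun h => ?_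
    refine (Group.IsSolvable.commutator_lt_top_of_nontrivial A).ne
      (Subgroup.map_injective A.subtype_injective ?_)
    rw [map_commutator_eq, ← MonoidHom.range_eq_map, Subgroup.range_subtype, h]
  have hlt' : Nat.card (⁅A, A⁆ : Subgroup H) < n := by
    rw [← hn]
    refine lt_of_le_of_ne (Nat.le_of_dvd Nat.card_pos (Subgroup.card_dvd_of_le hlt.le)) fun h =>
      hlt.ne (Subgroup.eq_of_le_of_card_ge hlt.le h.ge)
  haveI : Group.IsSolvable (⁅A, A⁆ : Subgroup H) :=
    Group.isSolvable_of_isSolvable_injective (Subgroup.inclusion_injective hlt.le)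
  refine ih _ hlt' inferInstance (fun h0 => hA0 (hab A hA fun a ha b hb => ?_)) this rfl
  exact (Subgroup.mem_centralizer_iff.1
    (Subgroup.commutator_eq_bot_iff_le_centralizer.1 h0 ha) b hb).symm

theorem two_dvd_card_of_not_solvable {A : Subgroup H} (hA : ¬ Group.IsSolvable A) :
    2 ∣ Nat.card A := by
  rcases Nat.even_or_odd (Nat.card A) with h | h
  · exact h.two_dvd
  · exact absurd (Cfsg.Agent.S0205.result h) hA

theorem adj_two_of_commuting {A B : Subgroup H} (hAB : ∀ a ∈ A, ∀ b ∈ B, a * b = b * a)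
    (hB : 2 ∣ Nat.card B) {p : ℕ} (hp : p.Prime) (hp2 : p ≠ 2) (hpA : p ∣ Nat.card A) :
    Adj H p 2 := by
  haveI := Fact.mk hp
  haveI := Fact.mk Nat.prime_two
  obtain ⟨u, hu⟩ := exists_prime_orderOf_dvd_card' (G := A) p hpA
  obtain ⟨w, hw⟩ := exists_prime_orderOf_dvd_card' (G := B) 2 hB
  exact adj_of_commute hp Nat.prime_two hp2 ((Subgroup.orderOf_coe u).trans hu)
    ((Subgroup.orderOf_coe w).trans hw) (hAB u u.2 w w.2)

/-- A group without abelian normal subgroups that is not almost simple has a normal subgroup of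
even order all of whose prime divisors are joined to 2. -/
theorem exists_normal_adj [Nontrivial H]
    (hab : ∀ A : Subgroup H, A.Normal → (∀ a ∈ A, ∀ b ∈ A, a * b = b * a) → A = ⊥)
    (hnas : ¬ ∃ N : Subgroup H, N.Normal ∧ IsSimpleGroup ↥N ∧ ¬ IsMulCommutative ↥N ∧
      Subgroup.centralizer (N : Set H) = ⊥) :
    ∃ M : Subgroup H, M.Normal ∧ 2 ∣ Nat.card M ∧
      ∀ p : ℕ, p.Prime → p ≠ 2 → p ∣ Nat.card M → Adj H p 2 := by
  classical
  obtain ⟨N, ⟨hN, hN0⟩, hNmin'⟩ := (wellFounded_lt (α := Subgroup H)).has_min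
    {A | A.Normal ∧ A ≠ ⊥} ⟨⊤, inferInstance, fun h => by
      obtain ⟨a, b, hab'⟩ := exists_pair_ne H
      exact hab' ((Subgroup.mem_bot.1 (h.le (Subgroup.mem_top a))).trans
        (Subgroup.mem_bot.1 (h.le (Subgroup.mem_top b))).symm)⟩
  haveI := hN
  have hNmin : ∀ B : Subgroup H, B.Normal → B ≤ N → B = ⊥ ∨ B = N := fun B hB hle =>
    or_iff_not_imp_left.2 fun hB0 => hle.eq_of_not_lt (hNmin' B ⟨hB, hB0⟩)
  have hN2 := two_dvd_card_of_not_solvable (not_solvable_of_normal hab hN hN0)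
  set C := Subgroup.centralizer (N : Set H) with hC
  by_cases hC0 : C = ⊥
  swap
  · have hCN : ∀ a ∈ N, ∀ b ∈ C, a * b = b * a := fun a ha b hb =>
      Subgroup.mem_centralizer_iff.1 hb a ha
    have hC2 := two_dvd_card_of_not_solvable (not_solvable_of_normal hab inferInstance hC0)
    refine ⟨N ⊔ C, Subgroup.sup_normal _ _,
      hN2.trans (Subgroup.card_dvd_of_le le_sup_left), fun p hp hp2 h => ?_⟩
    rcases hp.dvd_mul.1 (h.trans (CfsgLib.Cores.card_sup_dvd N C)) with h1 | h1
    · exact adj_two_of_commuting hCN hC2 hp hp2 h1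
    · exact adj_two_of_commuting (fun b hb a ha => (hCN a ha b hb).symm) hN2 hp hp2 h1
  -- `N` is not simple
  obtain ⟨T, ⟨hT0, hTle, hTN⟩, hTmin'⟩ := (wellFounded_lt (α := Subgroup H)).has_min
    {A | A ≠ ⊥ ∧ A ≤ N ∧ N ≤ Subgroup.normalizer (A : Set H)}
    ⟨N, hN0, le_rfl, Subgroup.le_normalizer⟩
  have hTmin : ∀ A : Subgroup H, A ≠ ⊥ → A ≤ T → N ≤ Subgroup.normalizer (A : Set H) → A = T :=
    fun A hA0 hle hnA => hle.eq_of_not_lt (hTmin' A ⟨hA0, hle.trans hTle, hnA⟩)
  have hgle : ∀ g : H, cj g T ≤ N := fun g => (cj_mono hTle).trans (cj_normal g hN).le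
  have hgN : ∀ g : H, N ≤ Subgroup.normalizer (cj g T : Set H) := fun g n hn => by
    rw [mem_normalizer_iff_cj, ← cj_mul, show n * g = g * (g⁻¹ * n * g⁻¹⁻¹) by group,
      cj_mul g (g⁻¹ * n * g⁻¹⁻¹), mem_normalizer_iff_cj.1 (hTN (hN.conj_mem n hn g⁻¹))]
  have hcomm : ∀ g : H, cj g T ≠ T → ∀ a ∈ T, ∀ b ∈ cj g T, a * b = b * a := by
    intro g hg a ha b hb
    have hI : T ⊓ cj g T = ⊥ := by
      by_contra h0
      have := hTmin _ h0 inf_le_left
        ((le_inf hTN (hgN g)).trans Subgroup.inf_normalizer_le_normalizer_inf)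
      exact hg (Subgroup.eq_of_le_of_card_ge (inf_eq_left.1 this) (card_cj g T).le).symm
    have h1 : a * b * a⁻¹ * b⁻¹ ∈ T ⊓ cj g T := ⟨by
      have := T.mul_mem ha
        (((Subgroup.mem_normalizer_iff.1 (hTN (hgle g hb))) a⁻¹).1 (T.inv_mem ha))
      simpa [mul_assoc] using this, (cj g T).mul_mem
        (((Subgroup.mem_normalizer_iff.1 (hgN g (hTle ha))) b).1 hb) ((cj g T).inv_mem hb)⟩
    rw [hI, Subgroup.mem_bot] at h1
    exact mul_inv_eq_iff_eq_mul.1 (mul_inv_eq_one.1 h1)
  have hgen : Subgroup.normalClosure (T : Set H) = N :=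
    (hNmin _ inferInstance (Subgroup.normalClosure_le_normal hTle)).resolve_left fun h =>
      hT0 (le_bot_iff.1 (Subgroup.le_normalClosure.trans h.le))
  have hgenle : ∀ P : Subgroup H, (∀ g : H, cj g T ≤ P) → N ≤ P := by
    intro P hP
    rw [← hgen, Subgroup.normalClosure, Subgroup.closure_le]
    intro x hx
    obtain ⟨a, ha, hax⟩ := Group.mem_conjugatesOfSet_iff.1 hx
    obtain ⟨c, hc⟩ := isConj_iff.1 hax
    exact hP c (hc ▸ conj_mem_cj ha)
  haveI : Nontrivial T := T.nontrivial_iff_ne_bot.2 hT0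
  haveI hsimp : IsSimpleGroup T := ⟨fun S hSn => by
    rcases eq_or_ne (S.map T.subtype) ⊥ with h | h
    · exact Or.inl ((Subgroup.map_eq_bot_iff_of_injective S T.subtype_injective).1 h)
    right
    have hn : N ≤ Subgroup.normalizer (S.map T.subtype : Set H) := by
      refine hgenle _ fun g b hb => mem_normalizer_of_cj_le ?_
      rintro z hz
      rw [mem_cj] at hz
      obtain ⟨s, hs, hsz⟩ := hz
      by_cases hg : cj g T = T
      · rw [hg] at hb
        exact ⟨⟨b, hb⟩ * s * ⟨b, hb⟩⁻¹, hSn.conj_mem s hs _,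
          by simp [show (s : H) = b⁻¹ * z * b from hsz, mul_assoc]⟩
      · have h1 := hcomm g hg s s.2 b hb
        rw [Subgroup.coe_subtype] at hsz
        refine ⟨s, hs, ?_⟩
        rw [Subgroup.coe_subtype]
        rw [hsz, show b * (b⁻¹ * z * b) = z * b by group] at h1
        exact hsz.trans (mul_right_cancel h1)
    have := hTmin _ h (Subgroup.map_subtype_le S) hn
    exact Subgroup.map_injective T.subtype_injective
      (this.trans (by simp [← MonoidHom.range_eq_map]))⟩
  have hTc : ¬ IsMulCommutative T := by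
    intro h
    refine hT0 (le_bot_iff.1 (hC0 ▸
      Subgroup.le_centralizer_iff.1 (hgenle _ fun g b hb => ?_)))
    refine Subgroup.mem_centralizer_iff.2 fun a ha => ?_
    by_cases hg : cj g T = T
    · exact congrArg Subtype.val (mul_comm' (⟨a, ha⟩ : T) ⟨b, hg ▸ hb⟩)
    · exact hcomm g hg a ha b hb
  obtain ⟨g, hg⟩ : ∃ g, cj g T ≠ T := by
    by_contra hc
    push Not at hc
    have hTn : T.Normal := Subgroup.normalizer_eq_top_iff.1 (top_le_iff.1 fun g _ =>
      mem_normalizer_iff_cj.2 (hc g))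
    exact hnas ⟨T, hTn, hsimp, hTc, (hNmin T hTn hTle).resolve_left hT0 ▸ hC0⟩
  have hT2 : 2 ∣ Nat.card T :=
    two_dvd_card_of_not_solvable fun h => hTc ⟨⟨IsSimpleGroup.comm_iff_isSolvable.2 h⟩⟩
  -- the primes of `N` are those of `T`
  obtain ⟨X, ⟨hXle, hXN, hXp⟩, hXmax⟩ := (wellFounded_gt (α := Subgroup H)).has_min
    {A | A ≤ N ∧ N ≤ Subgroup.normalizer (A : Set H) ∧
      ∀ p : ℕ, p.Prime → p ∣ Nat.card A → p ∣ Nat.card T}
    ⟨⊥, bot_le, fun n _ => by
      rw [Subgroup.normalizer_eq_top_iff.2 (inferInstance : (⊥ : Subgroup H).Normal)]; trivial,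
      fun p hp h => by simp [hp.ne_one] at h⟩
  have hNX : N ≤ X := hgenle _ fun c => by
    have hmem : X ⊔ cj c T ≤ N := sup_le hXle (hgle c)
    have hn : N ≤ Subgroup.normalizer ((X ⊔ cj c T : Subgroup H) : Set H) := fun n hn => by
      rw [Subgroup.mem_normalizer_iff_map_conj_eq, Subgroup.map_sup,
        Subgroup.mem_normalizer_iff_map_conj_eq.1 (hXN hn),
        Subgroup.mem_normalizer_iff_map_conj_eq.1 (hgN c hn)]
    have := eq_of_le_of_not_lt le_sup_left (hXmax _ ⟨hmem, hn, fun p hp h => by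
      haveI : ((cj c T).subgroupOf (X ⊔ cj c T)).Normal :=
        Subgroup.normal_subgroupOf_of_le_normalizer (hmem.trans (hgN c))
      have h1 := CfsgLib.Cores.card_sup_dvd (X.subgroupOf (X ⊔ cj c T))
        ((cj c T).subgroupOf (X ⊔ cj c T))
      rw [← Subgroup.subgroupOf_sup (le_sup_left) (le_sup_right), Subgroup.subgroupOf_self,
        Subgroup.card_top,
        Nat.card_congr (Subgroup.subgroupOfEquivOfLe (le_sup_left : X ≤ X ⊔ cj c T)).toEquiv,
        Nat.card_congr (Subgroup.subgroupOfEquivOfLe (le_sup_right : cj c T ≤ X ⊔ cj c T)).toEquiv,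
        card_cj] at h1
      rcases hp.dvd_mul.1 (h.trans h1) with h2 | h2
      · exact hXp p hp h2
      · exact h2⟩)
    exact le_sup_right.trans this.ge
  refine ⟨N, hN, hN2, fun p hp hp2 h => ?_⟩
  exact adj_two_of_commuting (hcomm g hg) ((card_cj g T).symm ▸ hT2) hp hp2
    (hXp p hp (h.trans (Subgroup.card_dvd_of_le hNX)))

/-- The main theorem. -/
theorem almostSimple_of_bounded {H : Type} [Group H] [Finite H] [Nontrivial H] (n : ℕ)
    (h : ∀ (H' : Type) [Group H'] [Finite H'], SameGraph H H' → Nat.card H' ≤ n) :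
    ∃ N : Subgroup H, N.Normal ∧ IsSimpleGroup ↥N ∧ ¬ IsMulCommutative ↥N ∧
      Subgroup.centralizer (N : Set H) = ⊥ := by
  have hab : ∀ A : Subgroup H, A.Normal → (∀ a ∈ A, ∀ b ∈ A, a * b = b * a) → A = ⊥ := by
    intro A hA hAc
    by_contra hA0
    obtain ⟨H', g1, g2, hsame, hlt⟩ := exists_large_of_abelian A hA hA0 hAc n
    exact absurd (@h H' g1 g2 hsame) (not_le.2 hlt)
  by_contra hnas
  obtain ⟨M, hM, h2, hadj⟩ := exists_normal_adj hab hnas
  obtain ⟨H', g1, g2, hsame, A, hA, hA0, hAc⟩ := exists_abelian_normal_of_adj h2 hadj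
  letI := g1
  letI := g2
  obtain ⟨H'', g3, g4, hsame', hlt⟩ := exists_large_of_abelian A hA hA0 hAc n
  letI := g3
  exact absurd (@h H'' g3 g4 (hsame.trans hsame')) (not_le.2 hlt)

end CfsgLib.PrimeGraphBound
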