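import Cfsg.Agent.Lib.PrimeGraphBound.Cover

/-!
# Construction of the cover

The fibre product of `H` and `W ⋊ (L ⧸ B)` over `H ⧸ M`: here `L` is a supplement of `M` inside a
Sylow 2-normaliser of `M`, `B` the bad part of `L ⊓ M` and `W` an induced module in which the
elements of far prime order are fixed-point-free.
-/

set_option autoImplicit false
set_option linter.unusedSectionVars false
set_option linter.style.haveILetI false

namespace CfsgLib.PrimeGraphBound

variable {H : Type} [Group H] [Finite H] {M : Subgroup H} [M.Normal]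

/-- The largest normal subgroup of `L` inside `K` whose order has only bad prime divisors. -/
theorem exists_bad_part {L : Type} [Group L] [Finite L] (K : Subgroup L) [K.Normal]
    [Group.IsNilpotent K] (bad : ℕ → Prop) :
    ∃ B : Subgroup L, B.Normal ∧ B ≤ K ∧ (∀ p : ℕ, p.Prime → p ∣ Nat.card B → bad p) ∧
      ∀ p : ℕ, p.Prime → bad p → ¬ p ∣ B.relIndex K := by
  classical
  obtain ⟨B, ⟨hBn, hBK, hBp⟩, hmax⟩ := (wellFounded_gt (α := Subgroup L)).has_min
    {A | A.Normal ∧ A ≤ K ∧ ∀ p : ℕ, p.Prime → p ∣ Nat.card A → bad p}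
    ⟨⊥, inferInstance, bot_le, fun p hp h => by simp [hp.ne_one] at h⟩
  refine ⟨B, hBn, hBK, hBp, fun p hp hbad hdvd => ?_⟩
  haveI := Fact.mk hp
  haveI := hBn
  obtain ⟨P⟩ : Nonempty (Sylow p K) := inferInstance
  haveI : (P : Subgroup K).Characteristic := P.characteristic_of_normal inferInstance
  set A : Subgroup L := (P : Subgroup K).map K.subtype
  have hA : A ≤ B := by
    refine le_sup_right.trans (le_of_eq (eq_of_le_of_not_lt le_sup_left ?_).symm : B ⊔ A ≤ B)
    exact hmax _ ⟨Subgroup.sup_normal _ _, sup_le hBK (Subgroup.map_subtype_le _), fun r hr h => by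
      rcases hr.dvd_mul.1 (h.trans (CfsgLib.Cores.card_sup_dvd B A)) with h1 | h1
      · exact hBp r hr h1
      · rw [Subgroup.card_map_of_injective K.subtype_injective, P.card_eq_multiplicity] at h1
        rwa [(Nat.prime_dvd_prime_iff_eq hr hp).1 (hr.dvd_of_dvd_pow h1)]⟩
  refine P.not_dvd_index (hdvd.trans ?_)
  have h1 := Subgroup.index_dvd_of_le (H := (P : Subgroup K)) (K := B.subgroupOf K)
    (fun x hx => hA (Subgroup.mem_map_of_mem K.subtype hx))
  exact h1

/-- A normal subgroup of even order with all primes joined to `2` gives a cover. -/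
theorem exists_abelian_normal_of_adj (h2 : 2 ∣ Nat.card M)
    (hadj : ∀ p : ℕ, p.Prime → p ≠ 2 → p ∣ Nat.card M → Adj H p 2) :
    ∃ (H' : Type) (_ : Group H') (_ : Finite H'), SameGraph H H' ∧
      ∃ A : Subgroup H', A.Normal ∧ A ≠ ⊥ ∧ ∀ a ∈ A, ∀ b ∈ A, a * b = b * a := by
  classical
  haveI := Fact.mk Nat.prime_two
  obtain ⟨P⟩ : Nonempty (Sylow 2 M) := inferInstance
  set S : Subgroup H := (P : Subgroup M).map M.subtype with hSdef
  have hS2 : IsPGroup 2 S := P.isPGroup'.map M.subtype
  set N := Subgroup.normalizer (S : Set H) with hN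
  obtain ⟨L, hLN, hLM, hnil⟩ := exists_supplement (M := M) (Sylow.normalizer_sup_eq_top P : N ⊔ M = ⊤)
  haveI := hnil
  -- the module `V`
  let V : Subgroup H :=
    { carrier := {z | z ∈ S ∧ z ^ 2 = 1 ∧ ∀ s ∈ S, z * s = s * z}
      one_mem' := ⟨one_mem S, one_pow 2, fun s _ => by simp⟩
      mul_mem' := fun {a b} ha hb => ⟨mul_mem ha.1 hb.1, by
          rw [(show Commute a b from ha.2.2 b hb.1).mul_pow, ha.2.1, hb.2.1, one_mul],
        fun s hs => ((show Commute a s from ha.2.2 s hs).mul_left (hb.2.2 s hs)).eq⟩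
      inv_mem' := fun {a} ha => ⟨inv_mem ha.1, by rw [inv_pow, ha.2.1, inv_one],
        fun s hs => ((show Commute a s from ha.2.2 s hs).inv_left).eq⟩ }
  letI : CommGroup V :=
    { (inferInstance : Group V) with
      mul_comm := fun a b => Subtype.ext (a.2.2.2 b b.2.1) }
  have hV2 : ∀ v : V, v ^ 2 = 1 := fun v => Subtype.ext v.2.2.1
  have hVne : ∃ v : V, v ≠ 1 := by
    haveI : Nontrivial S := by
      rw [Subgroup.nontrivial_iff_ne_bot, hSdef, Ne,
        Subgroup.map_eq_bot_iff_of_injective _ M.subtype_injective]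
      exact P.ne_bot_of_dvd_card h2
    haveI := hS2.center_nontrivial
    obtain ⟨⟨z, hz⟩, hzo⟩ := exists_prime_orderOf_dvd_card' (G := Subgroup.center S) 2 (by
      obtain ⟨k, hk⟩ := IsPGroup.iff_card.1 (hS2.to_subgroup (Subgroup.center S))
      rw [hk]
      refine dvd_pow_self 2 fun h => ?_
      rw [h, pow_zero] at hk
      exact Finite.one_lt_card.ne' hk)
    rw [← Subgroup.orderOf_coe, ← Subgroup.orderOf_coe] at hzo
    refine ⟨⟨(z : H), z.2, hzo ▸ pow_orderOf_eq_one (z : H), fun s hs =>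
      (congrArg Subtype.val (Subgroup.mem_center_iff.1 hz ⟨s, hs⟩)).symm⟩, fun h => ?_⟩
    have : (z : H) = 1 := congrArg Subtype.val h
    rw [this, orderOf_one] at hzo
    omega
  have hLV : L ≤ Subgroup.normalizer (V : Set H) := by
    intro l hl
    have hlS := Subgroup.mem_normalizer_iff.1 (hLN hl)
    have key : ∀ {g : H}, (∀ y, y ∈ S ↔ g * y * g⁻¹ ∈ S) → ∀ v ∈ V, g * v * g⁻¹ ∈ V := by
      intro g hg v hv
      refine ⟨(hg v).1 hv.1, by rw [conj_pow, hv.2.1, mul_one, mul_inv_cancel], fun s hs => ?_⟩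
      have h1 : g⁻¹ * s * g ∈ S := (hg _).2 (by simpa [mul_assoc] using hs)
      have := congrArg (fun y => g * y * g⁻¹) (hv.2.2 _ h1)
      simpa [mul_assoc] using this
    refine Subgroup.mem_normalizer_iff.2 fun v => ⟨key hlS v, fun h => ?_⟩
    have hlS' : ∀ y, y ∈ S ↔ l⁻¹ * y * l⁻¹⁻¹ ∈ S := fun y => by
      refine Iff.trans (iff_of_eq (congrArg (· ∈ S) ?_)) (hlS (l⁻¹ * y * l⁻¹⁻¹)).symm
      group
    simpa [mul_assoc] using key hlS' _ h
  let ρ : L →* MulAut V := (Subgroup.normalizerMonoidHom V).comp (Subgroup.inclusion hLV)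
  have hρ : ∀ (l : L) (v : V), ((ρ l v : V) : H) = (l : H) * v * (l : H)⁻¹ := fun l v => rfl
  have hfpf : ∀ x : L, Far H (orderOf x) → ∀ v : V, ρ x v = v → v = 1 := by
    intro x hx v hv
    by_contra hv1
    refine hx.2.2 (adj_of_commute hx.1 Nat.prime_two hx.2.1 (Subgroup.orderOf_coe x) ?_ ?_
      (w := (v : H)))
    · exact orderOf_eq_prime v.2.2.1 fun h => hv1 (Subtype.ext h)
    · have := congrArg Subtype.val hv
      rw [hρ] at this
      exact mul_inv_eq_iff_eq_mul.1 this
  -- the bad part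
  set K := M.subgroupOf L with hK
  obtain ⟨B, hBn, hBK, hBbad, hBidx⟩ := exists_bad_part K (fun q => ¬ Good M q)
  haveI := hBn
  set L₀ := farSubgroup (H := H) L with hL₀
  have hker : ∀ b ∈ B, b ∈ L₀ → ρ b = 1 := by
    suffices h : (B ⊓ L₀ : Subgroup L) ≤ ρ.ker from fun b hb hb' =>
      MonoidHom.mem_ker.1 (h ⟨hb, hb'⟩)
    intro b hb
    set C : Subgroup (B ⊓ L₀ : Subgroup L) := ρ.ker.subgroupOf (B ⊓ L₀) with hC
    suffices hidx : C.index = 1 by
      exact (Subgroup.index_eq_one.1 hidx).ge (Subgroup.mem_top (⟨b, hb⟩ : (B ⊓ L₀ : Subgroup L)))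
    by_contra hidx
    obtain ⟨q, hq, hqd⟩ := Nat.exists_prime_and_dvd hidx
    haveI := Fact.mk hq
    have hqB : ¬ Good M q := hBbad q hq (hqd.trans ((Subgroup.index_dvd_card C).trans
      (Subgroup.card_dvd_of_le inf_le_left)))
    obtain ⟨T⟩ : Nonempty (Sylow q (B ⊓ L₀ : Subgroup L)) := inferInstance
    refine T.not_dvd_index (hqd.trans (Subgroup.index_dvd_of_le ?_))
    intro t ht
    obtain ⟨j, hj⟩ := T.isPGroup' ⟨t, ht⟩
    exact map_eq_one_of_bad (M := M) ρ hadj hV2 hfpf hqB (hBK t.2.1) t.2.2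
      ⟨j, congrArg (fun w : (T : Subgroup (B ⊓ L₀ : Subgroup L)) => ((w : (B ⊓ L₀ : Subgroup L)) : L))
        hj⟩
  -- the induced module
  let mkE := QuotientGroup.mk' B
  let W : Subgroup (L ⧸ B → V) :=
    { carrier := {f | ∀ l ∈ L₀, ∀ e, f (mkE l * e) = ρ l (f e)}
      one_mem' := fun l _ e => (map_one (ρ l)).symm
      mul_mem' := fun {f g} hf hg l hl e => by simp [hf l hl e, hg l hl e]
      inv_mem' := fun {f} hf l hl e => by simp [hf l hl e] }
  let act : L ⧸ B → MulAut W := fun e =>
    { toFun := fun f => ⟨fun x => f.1 (x * e), fun l hl x => by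
        show f.1 (mkE l * x * e) = ρ l (f.1 (x * e))
        rw [mul_assoc, f.2 l hl]⟩
      invFun := fun f => ⟨fun x => f.1 (x * e⁻¹), fun l hl x => by
        show f.1 (mkE l * x * e⁻¹) = ρ l (f.1 (x * e⁻¹))
        rw [mul_assoc, f.2 l hl]⟩
      left_inv := fun f => Subtype.ext (funext fun x => by simp)
      right_inv := fun f => Subtype.ext (funext fun x => by simp)
      map_mul' := fun f g => rfl }
  let φ : L ⧸ B →* MulAut W :=
    { toFun := act
      map_one' := MulEquiv.ext fun f => Subtype.ext (funext fun x => by simp [act])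
      map_mul' := fun a b => MulEquiv.ext fun f => Subtype.ext (funext fun x => by
        simp [act, mul_assoc]) }
  have hW2 : ∀ f : W, f ^ 2 = 1 := fun f => Subtype.ext (funext fun x => hV2 _)
  obtain ⟨v₀, hv₀⟩ := hVne
  have hWne : ∃ f : W, f ≠ 1 := by
    let f₀ : L ⧸ B → V := fun e =>
      if h : ∃ l, l ∈ L₀ ∧ mkE l = e then ρ h.choose v₀ else 1
    have hwd : ∀ l ∈ L₀, ∀ e, mkE l = e → f₀ e = ρ l v₀ := by
      intro l hl e hle
      have hex : ∃ l', l' ∈ L₀ ∧ mkE l' = e := ⟨l, hl, hle⟩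
      simp only [f₀, dif_pos hex]
      obtain ⟨hl', hle'⟩ := hex.choose_spec
      have hmem : l⁻¹ * hex.choose ∈ B := QuotientGroup.eq.1 (hle.trans hle'.symm)
      have := hker _ hmem (L₀.mul_mem (L₀.inv_mem hl) hl')
      rw [map_mul, map_inv, inv_mul_eq_one] at this
      rw [this]
    refine ⟨⟨f₀, fun l hl e => ?_⟩, fun h => hv₀ ?_⟩
    · by_cases hex : ∃ l', l' ∈ L₀ ∧ mkE l' = e
      · obtain ⟨l', hl', rfl⟩ := hex
        rw [hwd l' hl' _ rfl, hwd (l * l') (L₀.mul_mem hl hl') _ (map_mul _ _ _), map_mul]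
        rfl
      · have hex' : ¬ ∃ l', l' ∈ L₀ ∧ mkE l' = mkE l * e := fun ⟨l', hl', h⟩ =>
          hex ⟨l⁻¹ * l', L₀.mul_mem (L₀.inv_mem hl) hl', by
            rw [map_mul, map_inv, h, inv_mul_cancel_left]⟩
        simp only [f₀, dif_neg hex, dif_neg hex', map_one]
    · have := congrFun (congrArg Subtype.val h) 1
      have h1 : f₀ 1 = v₀ := by rw [hwd 1 L₀.one_mem 1 (map_one _), map_one]; rfl
      exact h1.symm.trans this
  have hfpfE : ∀ e : L ⧸ B, Far H (orderOf e) → ∀ f : W, φ e f = f → f = 1 := by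
    intro e he f hf
    haveI := Fact.mk he.1
    have hpM : ¬ orderOf e ∣ Nat.card B := fun h => not_dvd_of_far hadj he (h.trans
      ((Subgroup.card_dvd_of_le hBK).trans (Subgroup.card_dvd_of_injective
        ((L.subtype.comp K.subtype).codRestrict M fun x => x.2)
        fun a b h => Subtype.ext (Subtype.ext (congrArg Subtype.val h :)))))
    refine Subtype.ext (funext fun x => ?_)
    obtain ⟨l, hl⟩ := QuotientGroup.mk'_surjective B (x * e * x⁻¹)
    have hoe : orderOf (mkE l) = orderOf e := by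
      show orderOf (QuotientGroup.mk' B l) = _
      rw [hl]
      exact (MulEquiv.orderOf_eq (MulAut.conj x) e)
    -- the part of `l` of order `p`
    set p := orderOf e with hp
    have hdvd : p ∣ orderOf l := hoe ▸ orderOf_map_dvd mkE l
    obtain ⟨c, hc⟩ := hdvd
    have hpc : ¬ p ∣ c := by
      intro h
      have h1 : l ^ p ∈ B := by
        rw [← QuotientGroup.eq_one_iff]
        show mkE (l ^ p) = 1
        rw [map_pow, ← hoe, pow_orderOf_eq_one]
      have h2' : orderOf (l ^ p) = c := by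
        rw [orderOf_pow' l he.1.ne_zero, hc, Nat.gcd_eq_right (dvd_mul_right p c),
          Nat.mul_div_cancel_left _ he.1.pos]
      exact hpM (h.trans (h2' ▸ B.orderOf_dvd_natCard h1))
    obtain ⟨j, -, hj⟩ := Nat.exists_mul_mod_eq_one_of_coprime
      ((he.1.coprime_iff_not_dvd.2 hpc).symm) he.1.one_lt
    set l' := l ^ (c * j) with hl'
    have hmk : mkE l' = mkE l := by
      rw [hl', map_pow, ← pow_mod_orderOf, hoe, hj, pow_one]
    have hl'p : orderOf l' = p := by
      have h1 : l' ^ p = 1 := by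
        rw [hl', ← pow_mul, show c * j * p = orderOf l * j by rw [hc]; ring, pow_mul,
          pow_orderOf_eq_one, one_pow]
      refine orderOf_eq_prime h1 fun h => he.1.one_lt.ne' ?_
      rw [← hoe, ← hmk, h, map_one, orderOf_one]
    have hl'0 : l' ∈ L₀ := Subgroup.subset_closure (show Far H (orderOf l') from hl'p ▸ he)
    refine hfpf l' (hl'p ▸ he) _ ?_
    have hfx : f.1 (x * e) = f.1 x := congrFun (congrArg Subtype.val hf) x
    rw [← f.2 l' hl'0 x, hmk]
    show f.1 (QuotientGroup.mk' B l * x) = f.1 x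
    rw [hl, inv_mul_cancel_right, hfx]
  -- the fibre product
  let toQ : L ⧸ B →* H ⧸ M := QuotientGroup.lift B ((QuotientGroup.mk' M).comp L.subtype)
    (fun b hb => (QuotientGroup.eq_one_iff (b : H)).2 (hBK hb))
  have htoQ : ∀ l : L, toQ (mkE l) = QuotientGroup.mk' M (l : H) := fun l => rfl
  have htoQs : Function.Surjective toQ := fun y => by
    obtain ⟨h, rfl⟩ := QuotientGroup.mk'_surjective M y
    obtain ⟨n, hn, m, hm, rfl⟩ := Subgroup.mem_sup_of_normal_right.1 (hLM.ge (Subgroup.mem_top h))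
    refine ⟨mkE ⟨n, hn⟩, ?_⟩
    rw [map_mul, show QuotientGroup.mk' M m = 1 from (QuotientGroup.eq_one_iff m).2 hm, mul_one]
    rfl
  haveI : Finite (W ⋊[φ] (L ⧸ B)) := Finite.of_equiv _ SemidirectProduct.equivProd.symm
  let R : (H × (W ⋊[φ] (L ⧸ B))) →* L ⧸ B :=
    SemidirectProduct.rightHom.comp (MonoidHom.snd H _)
  let X : Subgroup (H × (W ⋊[φ] (L ⧸ B))) :=
    ((QuotientGroup.mk' M).comp (MonoidHom.fst H _)).eqLocus (toQ.comp R)
  let pr : X →* H := (MonoidHom.fst H _).comp X.subtype
  let pe : X →* L ⧸ B := R.comp X.subtype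
  have hpr : Function.Surjective pr := fun h => by
    obtain ⟨e, he⟩ := htoQs (QuotientGroup.mk' M h)
    exact ⟨⟨(h, SemidirectProduct.inr e), he.symm⟩, rfl⟩
  refine ⟨X, inferInstance, inferInstance, ⟨fun p hp => ⟨fun h => ?_, fun h => ?_⟩,
    fun p q hp hq hne => ⟨adj_of_surjective hpr, fun h => ?_⟩⟩, ?_⟩
  · exact h.trans (Subgroup.card_dvd_of_surjective pr hpr)
  · have h1 := h.trans (Subgroup.card_subgroup_dvd_card X)
    rw [Nat.card_prod, Nat.card_congr SemidirectProduct.equivProd, Nat.card_prod] at h1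
    rcases hp.dvd_mul.1 h1 with h1 | h1
    · exact h1
    rcases hp.dvd_mul.1 h1 with h1 | h1
    · have : p = 2 := by
        have hWp : IsPGroup 2 W := fun f => ⟨1, by rw [pow_one]; exact hW2 f⟩
        obtain ⟨k, hk⟩ := IsPGroup.iff_card.1 hWp
        rw [hk] at h1
        exact (Nat.prime_dvd_prime_iff_eq hp Nat.prime_two).1 (hp.dvd_of_dvd_pow h1)
      exact this ▸ h2.trans M.card_subgroup_dvd_card
    · exact h1.trans ((Subgroup.card_dvd_of_surjective (QuotientGroup.mk' B)
        (QuotientGroup.mk'_surjective B)).trans L.card_subgroup_dvd_card)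
  · obtain ⟨u, w, hu, hw, huw⟩ := exists_commute_of_adj hp hq h
    have key : ∀ (u w : X) (p q : ℕ), p.Prime → q.Prime → p ≠ q → orderOf u = p → orderOf w = q →
        Commute u w → (pr u ≠ 1 → pr w ≠ 1 → Adj H p q) ∧
        (pe u ≠ 1 → pe w ≠ 1 → Adj H p q) ∧
        (pr u = 1 → pe u = 1 → Adj H p q) ∧
        (pr u ≠ 1 → pe u = 1 → pr w = 1 → pe w ≠ 1 → Adj H p q) := by
      intro u w p q hp hq hne hu hw huw
      refine ⟨fun h1 h2' => adj_of_commute hp hq hne (orderOf_map_eq hp hu h1)
        (orderOf_map_eq hq hw h2') (huw.map pr), fun h1 h2' => ?_, fun h1 h2' => ?_,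
        fun h1 h2' h3 h4 => ?_⟩
      · obtain ⟨l, hl⟩ := adj_of_surjective (QuotientGroup.mk'_surjective B)
          (adj_of_commute hp hq hne (orderOf_map_eq hp hu h1) (orderOf_map_eq hq hw h2')
            (huw.map pe))
        exact ⟨(l : H), (Subgroup.orderOf_coe l).trans hl⟩
      · -- `u` lies in `W`
        obtain ⟨⟨hh, ⟨f, e⟩⟩, hmem⟩ := u
        have he1 : e = 1 := h2'
        have hh1 : hh = 1 := h1
        subst he1; subst hh1
        have hf2 : f ^ 2 = 1 := hW2 f
        have hu2 : p = 2 := by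
          have : (⟨(1, ⟨f, 1⟩), hmem⟩ : X) ^ 2 = 1 := Subtype.ext (Prod.ext (by simp) (by
            show (⟨f, 1⟩ : W ⋊[φ] (L ⧸ B)) ^ 2 = 1
            rw [show (⟨f, 1⟩ : W ⋊[φ] (L ⧸ B)) = SemidirectProduct.inl f from rfl, ← map_pow, hf2,
              map_one]))
          exact (Nat.prime_dvd_prime_iff_eq hp Nat.prime_two).1
            (hu ▸ orderOf_dvd_of_pow_eq_one this)
        subst hu2
        by_cases hqM : q ∣ Nat.card M
        · exact (hadj q hq hne.symm hqM).symm
        by_contra hnadj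
        have hfar : Far H q := ⟨hq, hne.symm, fun h => hnadj h.symm⟩
        have hwe : pe w ≠ 1 := by
          intro hwe
          obtain ⟨⟨h', ⟨f', e'⟩⟩, hmem'⟩ := w
          have he' : e' = 1 := hwe
          subst he'
          by_cases hh' : h' = 1
          · subst hh'
            have : (⟨(1, ⟨f', 1⟩), hmem'⟩ : X) ^ 2 = 1 := Subtype.ext (Prod.ext (by simp) (by
              show (⟨f', 1⟩ : W ⋊[φ] (L ⧸ B)) ^ 2 = 1
              rw [show (⟨f', 1⟩ : W ⋊[φ] (L ⧸ B)) = SemidirectProduct.inl f' from rfl, ← map_pow,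
                hW2 f', map_one]))
            exact hne.symm ((Nat.prime_dvd_prime_iff_eq hq Nat.prime_two).1
              (hw ▸ orderOf_dvd_of_pow_eq_one this))
          · have hM' : h' ∈ M := (QuotientGroup.eq_one_iff h').1 (hmem'.trans (map_one toQ))
            have ho := orderOf_map_eq (f := pr) hq hw hh'
            exact hqM (ho ▸ M.orderOf_dvd_natCard hM')
        have hfw : φ (pe w) f = f := by
          have h5 := congrArg (fun z : X => z.1.2.left) huw.eq
          simp only [Subgroup.coe_mul, Prod.snd_mul, SemidirectProduct.mul_left, map_one,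
            MulAut.one_apply] at h5
          have hcomm : ∀ a b : W, a * b = b * a := fun a b =>
            Subtype.ext (funext fun x => mul_comm _ _)
          rw [hcomm f] at h5
          exact (mul_left_cancel h5).symm
        have hf1 := hfpfE (pe w) ((orderOf_map_eq hq hw hwe).symm ▸ hfar) f hfw
        subst hf1
        have : (⟨(1, ⟨1, 1⟩), hmem⟩ : X) = 1 := rfl
        rw [this, orderOf_one] at hu
        omega
      · -- `u` lies over `M` and `w` over the kernel
        have hpu : p ∣ Nat.card M := by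
          have hM' : pr u ∈ M := (QuotientGroup.eq_one_iff _).1
            ((u.2 : QuotientGroup.mk' M (pr u) = toQ (pe u)).trans (show toQ (pe u) = 1 by rw [h2', map_one]))
          exact orderOf_map_eq hp hu h1 ▸ M.orderOf_dvd_natCard hM'
        obtain ⟨l, hl⟩ := QuotientGroup.mk'_surjective B (pe w)
        have hlK : l ∈ K := by
          rw [hK, Subgroup.mem_subgroupOf, ← QuotientGroup.eq_one_iff]
          show QuotientGroup.mk' M (l : H) = 1
          have h5 : QuotientGroup.mk' M (pr w) = toQ (pe w) := w.2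
          rw [← htoQ, show mkE l = pe w from hl, ← h5, h3, map_one]
        have hqd : q ∣ B.relIndex K := by
          have hmem : (⟨l, hlK⟩ : K) ∉ B.subgroupOf K := fun hb => h4 (by
            rw [← hl]; exact (QuotientGroup.eq_one_iff l).2 hb)
          haveI : (B.subgroupOf K).Normal := Subgroup.normal_subgroupOf
          have ho : orderOf (QuotientGroup.mk' (B.subgroupOf K) ⟨l, hlK⟩) = q := by
            refine orderOf_eq_prime (hp := Fact.mk hq) ?_ fun h =>
              hmem ((QuotientGroup.eq_one_iff _).1 h)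
            rw [← map_pow]
            refine (QuotientGroup.eq_one_iff _).2 ?_
            show l ^ q ∈ B
            rw [← QuotientGroup.eq_one_iff]
            show QuotientGroup.mk' B (l ^ q) = 1
            rw [map_pow, hl, ← map_pow, ← hw, pow_orderOf_eq_one, map_one]
          rw [← ho]
          exact orderOf_dvd_natCard _
        have hgood : Good M q := by_contra fun hb => hBidx q hq hb hqd
        exact hgood p hp hpu hne
    obtain ⟨A1, A2, A3, A4⟩ := key u w p q hp hq hne hu hw huw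
    obtain ⟨-, -, B3, B4⟩ := key w u q p hq hp hne.symm hw hu huw.symm
    by_cases h1 : pr u = 1 <;> by_cases h2' : pe u = 1 <;> by_cases h3 : pr w = 1 <;>
      by_cases h4 : pe w = 1
    all_goals
      first
      | exact A3 h1 h2' | exact (B3 h3 h4).symm | exact A1 h1 h3 | exact A2 h2' h4
      | exact A4 h1 h2' h3 h4 | exact (B4 h3 h4 h1 h2').symm
  · let ι : W →* X :=
      ((MonoidHom.inr H _).comp SemidirectProduct.inl).codRestrict X fun f => by
        show QuotientGroup.mk' M 1 = toQ 1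
        rw [map_one, map_one]
    have hι : Function.Injective ι := fun a b h =>
      SemidirectProduct.inl_injective (congrArg (fun z : X => z.1.2) h :)
    have hrange : ι.range = pr.ker ⊓ pe.ker := by
      refine le_antisymm ?_ ?_
      · rintro _ ⟨f, rfl⟩
        exact ⟨rfl, rfl⟩
      · rintro ⟨⟨h', ⟨f, e⟩⟩, hmem⟩ ⟨h1, h2'⟩
        have h1' : h' = 1 := h1
        have h2'' : e = 1 := h2'
        subst h1'; subst h2''
        exact ⟨f, rfl⟩
    refine ⟨ι.range, hrange ▸ inferInstance, fun h => ?_, ?_⟩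
    · obtain ⟨f, hf⟩ := hWne
      exact hf (hι (by
        have : ι f ∈ ι.range := ⟨f, rfl⟩
        rw [h, Subgroup.mem_bot] at this
        rw [this, map_one]))
    · rintro _ ⟨a, rfl⟩ _ ⟨b, rfl⟩
      rw [← map_mul, ← map_mul, show a * b = b * a from Subtype.ext (funext fun x => mul_comm _ _)]

end CfsgLib.PrimeGraphBound
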