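import Cfsg.Agent.Lib.PrimeGraphBound.Basic
import Cfsg.Agent.Lib.ExtraspecialFPF.FixedPoint
import Cfsg.Agent.Lib.BGAppendix.Coprime
import Cfsg.Agent.Lib.PGroups.Omega
import Cfsg.Agent.Lib.Cores.Basic

/-!
# A solvable cover with the same prime graph

Let `M` be a normal subgroup of even order of the finite group `H` such that every odd prime
divisor of `|M|` is joined to `2`.  Then some finite group with the same prime graph as `H` has a
non-trivial abelian normal subgroup.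
-/

set_option autoImplicit false
set_option linter.unusedSectionVars false
set_option linter.style.haveILetI false

namespace CfsgLib.PrimeGraphBound

variable {H : Type} [Group H] [Finite H] {M : Subgroup H} [M.Normal]

/-- `q` is joined to every other prime divisor of `|M|`. -/
def Good (M : Subgroup H) (q : ℕ) : Prop :=
  ∀ p : ℕ, p.Prime → p ∣ Nat.card M → p ≠ q → Adj H p q

/-- A prime not joined to `2`. -/
def Far (H : Type*) [Group H] (p : ℕ) : Prop := p.Prime ∧ p ≠ 2 ∧ ¬ Adj H p 2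

theorem not_dvd_of_far (hadj : ∀ p : ℕ, p.Prime → p ≠ 2 → p ∣ Nat.card M → Adj H p 2) {p : ℕ}
    (hp : Far H p) : ¬ p ∣ Nat.card M :=
  fun h => hp.2.2 (hadj p hp.1 hp.2.1 h)

/-- A subgroup minimal among the supplements of `M` below `N` meets `M` in a nilpotent group. -/
theorem exists_supplement {N : Subgroup H} (hN : N ⊔ M = ⊤) :
    ∃ L : Subgroup H, L ≤ N ∧ L ⊔ M = ⊤ ∧ Group.IsNilpotent (M.subgroupOf L) := by
  classical
  obtain ⟨L, ⟨hLN, hLM⟩, hmin⟩ := (wellFounded_lt (α := Subgroup H)).has_min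
    {L | L ≤ N ∧ L ⊔ M = ⊤} ⟨N, le_rfl, hN⟩
  refine ⟨L, hLN, hLM, ?_⟩
  have hle : M.subgroupOf L ≤ frattini L := by
    refine le_iInf fun Y => le_iInf fun hY => ?_
    by_contra hK
    have htop : Y ⊔ M.subgroupOf L = ⊤ := hY.2 _ (lt_of_le_not_ge le_sup_left fun h =>
      hK (le_sup_right.trans h))
    refine hmin (Y.map L.subtype) ⟨(Subgroup.map_subtype_le Y).trans hLN, top_le_iff.1 ?_⟩ ?_
    · rw [← hLM]
      refine sup_le (fun l hl => ?_) le_sup_right
      obtain ⟨y, hy, k, hk, hyk⟩ :=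
        Subgroup.mem_sup_of_normal_right.1 (htop.ge (Subgroup.mem_top (⟨l, hl⟩ : L)))
      have h1 : l = (y : H) * k := by rw [← Subgroup.coe_mul, hyk]
      rw [h1]
      exact Subgroup.mul_mem_sup (Subgroup.mem_map_of_mem L.subtype hy) hk
    · refine lt_of_le_of_ne (Subgroup.map_subtype_le Y) fun h => hY.1 ?_
      exact Subgroup.map_injective L.subtype_injective (h.trans (by simp [← MonoidHom.range_eq_map]))
  haveI := frattini_nilpotent (G := L)
  exact Group.nilpotent_of_mulEquiv (Subgroup.subgroupOfEquivOfLe hle)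

/-- For a prime that is not good, `q`-subgroups of `H` have cyclic image modulo `M`. -/
theorem isCyclic_map {q : ℕ} [hq : Fact q.Prime] (hq2 : q ≠ 2) (hbad : ¬ Good M q)
    {R : Subgroup H} (hR : IsPGroup q R) : IsCyclic (R.map (QuotientGroup.mk' M)) := by
  classical
  unfold Good at hbad
  push Not at hbad
  obtain ⟨p, hp, hpM, hpq, hnadj⟩ := hbad
  haveI := Fact.mk hp
  obtain ⟨P⟩ : Nonempty (Sylow p M) := inferInstance
  set PH : Subgroup H := (P : Subgroup M).map M.subtype with hPH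
  set N := Subgroup.normalizer (PH : Set H)
  have hNM : N ⊔ M = ⊤ := Sylow.normalizer_sup_eq_top P
  let f : N →* H ⧸ M := (QuotientGroup.mk' M).comp N.subtype
  have hf : Function.Surjective f := fun x => by
    obtain ⟨h, rfl⟩ := QuotientGroup.mk'_surjective M x
    obtain ⟨n, hn, m, hm, rfl⟩ := Subgroup.mem_sup_of_normal_right.1 (hNM.ge (Subgroup.mem_top h))
    refine ⟨⟨n, hn⟩, ?_⟩
    rw [map_mul, show QuotientGroup.mk' M m = 1 from (QuotientGroup.eq_one_iff m).2 hm, mul_one]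
    rfl
  obtain ⟨T, hT⟩ := (hR.map (QuotientGroup.mk' M)).exists_le_sylow
  obtain ⟨R', hR'⟩ := Sylow.mapSurjective_surjective hf q T
  suffices hcyc : IsCyclic (R' : Subgroup N) by
    have h1 : R.map (QuotientGroup.mk' M) ≤ (R' : Subgroup N).map f := by
      refine hT.trans (le_of_eq ?_)
      rw [← hR', Sylow.coe_mapSurjective]
    haveI : IsCyclic ((R' : Subgroup N).map f) :=
      isCyclic_of_surjective _ (f.subgroupMap_surjective _)
    exact isCyclic_of_injective _ (Subgroup.inclusion_injective h1)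
  by_contra hnc
  obtain ⟨E, -, hE, hEc⟩ := CfsgLib.PGroups.exists_normal_elemAb_sq hq2 R'.isPGroup' hnc
  set g : (R' : Subgroup N) →* H := N.subtype.comp (R' : Subgroup N).subtype with hg
  have hginj : Function.Injective g := N.subtype_injective.comp (R' : Subgroup N).subtype_injective
  set B := E.map g with hB
  have hBc : IsMulCommutative B := ⟨⟨by
    rintro ⟨_, a, ha, rfl⟩ ⟨_, b, hb, rfl⟩
    have h1 : a * b = b * a := congrArg Subtype.val (hE.1.is_comm.comm ⟨a, ha⟩ ⟨b, hb⟩)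
    exact Subtype.ext (by rw [Subgroup.coe_mul, Subgroup.coe_mul, ← map_mul, h1, map_mul])⟩⟩
  have hBp : ∀ b ∈ B, b ^ q = 1 := by
    rintro _ ⟨a, ha, rfl⟩
    rw [← map_pow, hE.2 a ha, map_one]
  have hBcard : q < Nat.card B := by
    rw [hB, Subgroup.card_map_of_injective hginj, hEc]
    exact lt_self_pow₀ hq.out.one_lt one_lt_two
  have hBN : B ≤ Subgroup.normalizer (PH : Set H) := by
    rintro _ ⟨a, -, rfl⟩
    exact a.1.2
  have hPH1 : PH ≠ ⊥ := by
    rw [hPH, Ne, Subgroup.map_eq_bot_iff_of_injective _ M.subtype_injective]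
    exact P.ne_bot_of_dvd_card hpM
  obtain ⟨b, hb, hb1, hcent⟩ := CfsgLib.BGAppendix.exists_ne_one_centralizer hq.out hp hpq.symm
    hBc hBp hBcard hBN (P.isPGroup'.map M.subtype) hPH1
  haveI : Nontrivial (PH ⊓ Subgroup.centralizer ({b} : Set H) : Subgroup H) :=
    (Subgroup.nontrivial_iff_ne_bot _).2 hcent
  have hpg : IsPGroup p (PH ⊓ Subgroup.centralizer ({b} : Set H) : Subgroup H) :=
    (P.isPGroup'.map M.subtype).to_le inf_le_left
  obtain ⟨k, hk⟩ := IsPGroup.iff_card.1 hpg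
  have hk0 : k ≠ 0 := by
    rintro rfl
    rw [pow_zero] at hk
    exact Finite.one_lt_card.ne' hk
  obtain ⟨⟨u, hu⟩, huo⟩ := exists_prime_orderOf_dvd_card'
    (G := (PH ⊓ Subgroup.centralizer ({b} : Set H) : Subgroup H)) p (hk ▸ dvd_pow_self p hk0)
  rw [← Subgroup.orderOf_coe] at huo
  refine hnadj (adj_of_commute (w := b) hp hq.out hpq huo ?_ ?_)
  · exact orderOf_eq_prime (hBp b hb) hb1
  · exact (Subgroup.mem_centralizer_iff.1 hu.2 b rfl).symm

/-- Elements of order `q` in a normal `q`-subgroup act centrally, in the faithful image on a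
2-group on which the generators are fixed-point-free. -/
theorem map_commute {L V : Type} [Group L] [CommGroup V] [Finite V] (hV : ∀ v : V, v ^ 2 = 1)
    (ρ : L →* MulAut V) {q r : ℕ} (hq : q.Prime) (hq2 : q ≠ 2) (hr : r.Prime) (hr2 : r ≠ 2)
    (hqr : q ≠ r) {K : Subgroup L} (hK : K.Normal) (hKq : IsPGroup q K) {x : L} (hx : x ^ r = 1)
    (hfpf : ∀ v : V, ρ x v = v → v = 1) {k : L} (hk : k ∈ K) : ρ x * ρ k = ρ k * ρ x := by
  by_contra hne
  obtain ⟨v, hv1, hv⟩ := CfsgLib.ExtraspecialFPF.exists_fixed_ne_one_aut Nat.prime_two hq hr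
    (Ne.symm hq2) (Ne.symm hr2) hqr hV (ρ x) (by rw [← map_pow, hx, map_one]) (K.map ρ)
    (hKq.map ρ) (by
      have h1 : x ∈ Subgroup.normalizer (K : Set L) := by
        rw [Subgroup.normalizer_eq_top_iff.2 hK]; trivial
      exact Subgroup.le_normalizer_map ρ ⟨x, h1, rfl⟩) ⟨_, Subgroup.mem_map_of_mem ρ hk, hne⟩
    (fun h => absurd h hq2)
  exact hv1 (hfpf v hv)

/-- The transfer step. -/
theorem eq_one_of_transfer {G₀ : Type} [Group G₀] [Finite G₀] {q : ℕ} [hq : Fact q.Prime]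
    (P : Subgroup G₀) (hP : IsPGroup q P) (hPc : ∀ a ∈ P, ∀ b ∈ P, a * b = b * a)
    (hind : ¬ q ∣ P.index) {s : Set G₀} (hs : Subgroup.closure s = ⊤)
    (hsq : ∀ x ∈ s, ∃ r : ℕ, r.Prime ∧ r ≠ q ∧ x ^ r = 1) {z : G₀} (hzP : z ∈ P)
    (hzc : ∀ g, z * g = g * z) : z = 1 := by
  letI : CommGroup P :=
    { (inferInstance : Group P) with
      mul_comm := fun a b => Subtype.ext (hPc a a.2 b b.2) }
  let θ : G₀ →* P := MonoidHom.transfer (MonoidHom.id P)
  have hθ : θ = 1 := MonoidHom.eq_of_eqOn_dense hs fun x hx => by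
    obtain ⟨r, hr, hrq, hxr⟩ := hsq x hx
    rw [MonoidHom.one_apply]
    have h1 : θ x ^ r = 1 := by rw [← map_pow, hxr, map_one]
    obtain ⟨j, hj⟩ := hP (θ x)
    have := (pow_gcd_eq_one (a := θ x)).2 ⟨h1, hj⟩
    rwa [Nat.Coprime.gcd_eq_one (((Nat.coprime_primes hr hq.out).2 hrq).pow_right j), pow_one]
      at this
  have hkey : ∀ (k : ℕ) (g₀ : G₀), g₀⁻¹ * z ^ k * g₀ ∈ P → g₀⁻¹ * z ^ k * g₀ = z ^ k :=
    fun k g₀ _ => by
      rw [mul_assoc, ((show Commute z g₀ from hzc g₀).pow_left k).eq, inv_mul_cancel_left]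
  have h2 := MonoidHom.transfer_eq_pow (MonoidHom.id P) z hkey
  rw [show MonoidHom.transfer (MonoidHom.id P) = θ from rfl, hθ, MonoidHom.one_apply,
    MonoidHom.id_apply] at h2
  have h3 : z ^ P.index = 1 := (congrArg Subtype.val h2).symm
  obtain ⟨j, hj⟩ := hP ⟨z, hzP⟩
  have hj' : z ^ q ^ j = 1 := congrArg Subtype.val hj
  have := (pow_gcd_eq_one (a := z)).2 ⟨h3, hj'⟩
  rwa [Nat.Coprime.gcd_eq_one (((hq.out.coprime_iff_not_dvd.2 hind).symm).pow_right j), pow_one]
    at this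

section Main

variable (L : Subgroup H) {V : Type} [CommGroup V] [Finite V] (ρ : L →* MulAut V)

/-- The elements of far prime order generate this subgroup. -/
def farSubgroup : Subgroup L := Subgroup.closure {l : L | Far H (orderOf l)}

instance : (farSubgroup L).Normal :=
  Subgroup.Normal.mk fun n hn g => by
    have hle : farSubgroup L ≤ (farSubgroup L).comap (MulAut.conj g).toMonoidHom := by
      refine (Subgroup.closure_le _).2 fun x hx => Subgroup.subset_closure ?_
      show Far H (orderOf ((MulAut.conj g) x))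
      rw [MulEquiv.orderOf_eq]
      exact hx
    simpa using hle hn

variable {L}

/-- For a prime that is not good, `q`-elements of `M` in the far subgroup act trivially. -/
theorem map_eq_one_of_bad (hadj : ∀ p : ℕ, p.Prime → p ≠ 2 → p ∣ Nat.card M → Adj H p 2)
    (hV : ∀ v : V, v ^ 2 = 1)
    (hfpf : ∀ x : L, Far H (orderOf x) → ∀ v : V, ρ x v = v → v = 1)
    [Group.IsNilpotent (M.subgroupOf L)] {q : ℕ} [hq : Fact q.Prime] (hbad : ¬ Good M q) {k : L}
    (hkM : k ∈ M.subgroupOf L) (hkL : k ∈ farSubgroup L) (hkq : ∃ j, k ^ q ^ j = 1) :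
    ρ k = 1 := by
  classical
  by_contra hne
  have hk1 : k ≠ 1 := fun h => hne (by rw [h, map_one])
  set K := M.subgroupOf L with hK
  have hqK : q ∣ Nat.card K := by
    obtain ⟨j, hj⟩ := hkq
    obtain ⟨i, -, hi⟩ := (Nat.dvd_prime_pow hq.out).1 (orderOf_dvd_of_pow_eq_one hj)
    refine dvd_trans ?_ (K.orderOf_dvd_natCard hkM)
    rw [hi]
    refine dvd_pow_self q fun h => hk1 ?_
    rw [← orderOf_eq_one_iff, hi, h, pow_zero]
  have hqM : q ∣ Nat.card M := by
    refine hqK.trans ?_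
    exact Subgroup.card_dvd_of_injective ((L.subtype.comp K.subtype).codRestrict M fun x => x.2)
      fun a b h => Subtype.ext (Subtype.ext (congrArg Subtype.val h :))
  have hq2 : q ≠ 2 := fun h => hbad fun p hp hpM hne' => h ▸ hadj p hp (h ▸ hne') hpM
  obtain ⟨Q⟩ : Nonempty (Sylow q K) := inferInstance
  haveI hQn : (Q : Subgroup K).Normal := inferInstance
  haveI : (Q : Subgroup K).Characteristic := Q.characteristic_of_normal hQn
  set Kq : Subgroup L := (Q : Subgroup K).map K.subtype with hKq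
  haveI hKqn : Kq.Normal := by rw [hKq]; infer_instance
  have hKqp : IsPGroup q Kq := Q.isPGroup'.map K.subtype
  have hmem : ∀ a : L, a ∈ K → (∃ j, a ^ q ^ j = 1) → a ∈ Kq := by
    rintro a ha ⟨j, hj⟩
    have hz : IsPGroup q (Subgroup.zpowers (⟨a, ha⟩ : K)) := by
      obtain ⟨i, -, hi⟩ := (Nat.dvd_prime_pow hq.out).1 (orderOf_dvd_of_pow_eq_one
        (show (⟨a, ha⟩ : K) ^ q ^ j = 1 from Subtype.ext hj))
      exact IsPGroup.of_card (n := i) (by rw [Nat.card_zpowers, hi])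
    obtain ⟨T, hT⟩ := hz.exists_le_sylow
    haveI := Q.unique_of_normal hQn
    have := hT (Subgroup.mem_zpowers (⟨a, ha⟩ : K))
    rw [Subsingleton.elim T Q] at this
    exact Subgroup.mem_map_of_mem K.subtype this
  -- the generators centralise the image of `Kq`
  have hgen : ∀ x : L, x ∈ farSubgroup L → ∀ c ∈ Kq, ρ x * ρ c = ρ c * ρ x := by
    intro x hx c hc
    have hsub : farSubgroup L ≤ (Subgroup.centralizer {ρ c}).comap ρ := by
      refine (Subgroup.closure_le _).2 fun y hy => ?_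
      refine Subgroup.mem_comap.2 (Subgroup.mem_centralizer_iff.2 fun d hd => ?_)
      rw [Set.mem_singleton_iff.1 hd]
      exact (map_commute hV ρ hq.out hq2 hy.1 hy.2.1 (fun h => not_dvd_of_far hadj hy (h ▸ hqM))
        hKqn hKqp (pow_orderOf_eq_one y) (hfpf y hy) hc).symm
    exact (Subgroup.mem_centralizer_iff.1 (hsub hx) (ρ c) rfl).symm
  set L₀ := farSubgroup L with hL₀
  set ψ : L₀ →* (ρ.comp L₀.subtype).range := (ρ.comp L₀.subtype).rangeRestrict
  have hψ : Function.Surjective ψ := MonoidHom.rangeRestrict_surjective _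
  have hz : IsPGroup q (Subgroup.zpowers (⟨k, hkL⟩ : L₀)) := by
    obtain ⟨j, hj⟩ := hkq
    obtain ⟨i, -, hi⟩ := (Nat.dvd_prime_pow hq.out).1 (orderOf_dvd_of_pow_eq_one
      (show (⟨k, hkL⟩ : L₀) ^ q ^ j = 1 from Subtype.ext hj))
    exact IsPGroup.of_card (n := i) (by rw [Nat.card_zpowers, hi])
  obtain ⟨P, hP⟩ := hz.exists_le_sylow
  set g₀ : L₀ →* H := L.subtype.comp L₀.subtype
  haveI := isCyclic_map (M := M) hq2 hbad (R := (P : Subgroup L₀).map g₀) (P.isPGroup'.map g₀)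
  obtain ⟨⟨γ, hγ⟩, hgenγ⟩ :=
    IsCyclic.exists_generator (α := ((P : Subgroup L₀).map g₀).map (QuotientGroup.mk' M))
  obtain ⟨_, ⟨c, hcP, rfl⟩, rfl⟩ := hγ
  have hsplit : ∀ a ∈ (P : Subgroup L₀), ∃ i : ℤ, ((c ^ (-i) * a : L₀) : L) ∈ Kq := by
    intro a ha
    obtain ⟨i, hi⟩ := Subgroup.mem_zpowers_iff.1 (hgenγ ⟨QuotientGroup.mk' M (g₀ a),
      Subgroup.mem_map_of_mem _ (Subgroup.mem_map_of_mem g₀ ha)⟩)
    have hi' : QuotientGroup.mk' M (g₀ c) ^ i = QuotientGroup.mk' M (g₀ a) := by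
      have := congrArg Subtype.val hi
      simpa using this
    refine ⟨i, hmem _ ?_ ?_⟩
    · rw [hK, Subgroup.mem_subgroupOf, ← QuotientGroup.eq_one_iff]
      show QuotientGroup.mk' M (g₀ (c ^ (-i) * a)) = 1
      rw [map_mul, map_mul, map_zpow, map_zpow, zpow_neg, hi', inv_mul_cancel]
    · obtain ⟨j, hj⟩ := P.isPGroup' ⟨c ^ (-i) * a, mul_mem (zpow_mem hcP _) ha⟩
      exact ⟨j, congrArg (fun w : (P : Subgroup L₀) => ((w : L₀) : L)) hj⟩
  have hcomm : ∀ a ∈ (P : Subgroup L₀), Commute (ρ (a : L)) (ρ (c : L)) := by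
    intro a ha
    obtain ⟨i, hi⟩ := hsplit a ha
    have : (a : L) = (c : L) ^ i * ((c ^ (-i) * a : L₀) : L) := by simp
    rw [this, map_mul, map_zpow]
    exact ((Commute.refl _).zpow_left i).mul_left (hgen _ c.2 _ hi).symm
  have hPc : ∀ a ∈ (P : Subgroup L₀).map ψ, ∀ b ∈ (P : Subgroup L₀).map ψ, a * b = b * a := by
    rintro _ ⟨a, ha, rfl⟩ _ ⟨b, hb, rfl⟩
    refine Subtype.ext ?_
    show ρ (a : L) * ρ (b : L) = ρ (b : L) * ρ (a : L)
    obtain ⟨i, hi⟩ := hsplit b hb
    have : (b : L) = (c : L) ^ i * ((c ^ (-i) * b : L₀) : L) := by simp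
    rw [this, map_mul, map_zpow]
    exact ((hcomm a ha).zpow_right i).mul_right (hgen _ a.2 _ hi)
  have hkKq : k ∈ Kq := hmem k hkM hkq
  have hs : Subgroup.closure (ψ '' (L₀.subtype ⁻¹' {l : L | Far H (orderOf l)})) = ⊤ := by
    rw [← MonoidHom.map_closure, ← Subgroup.map_top_of_surjective ψ hψ]
    congr 1
    exact Subgroup.closure_closure_coe_preimage
  have := eq_one_of_transfer ((P : Subgroup L₀).map ψ) (P.isPGroup'.map ψ) hPc
    (fun h => P.not_dvd_index (h.trans ((P : Subgroup L₀).index_map_dvd hψ))) hs (fun z hz' => by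
      obtain ⟨y, hy, rfl⟩ := hz'
      refine ⟨orderOf (y : L), hy.1, fun h => not_dvd_of_far hadj hy (h ▸ hqM), ?_⟩
      rw [← map_pow, show y ^ orderOf (y : L) = 1 from Subtype.ext (pow_orderOf_eq_one _), map_one])
    (z := ψ ⟨k, hkL⟩) (Subgroup.mem_map_of_mem ψ (hP (Subgroup.mem_zpowers _))) (fun g => by
      obtain ⟨y, rfl⟩ := hψ g
      exact Subtype.ext (hgen _ y.2 _ hkKq).symm)
  exact hne (congrArg Subtype.val this)

end Main

end CfsgLib.PrimeGraphBound
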